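import Cfsg.Agent.H691.T3.Defs
import Cfsg.Agent.H464.AltExt

/-!
# The alternating groups do not have the degrees of `SL₃(q)`, `q ≥ 3` (S4855, task 2536; helper446)
-/

set_option autoImplicit false

namespace Cfsg.Agent.H446.SLT

open Cfsg Cfsg.Agent.H691 Cfsg.Agent.H691.T3 Cfsg.Agent.H464.AltExt

theorem alt_false3 {A : Type*} [Group A] [Finite A] {S : Subgroup A} (h : AS A S) {n : ℕ} (hn : 7 ≤ n)
    (e : S ≃* alternatingGroup (Fin n)) {q : ℕ} (hq : 3 ≤ q) (hD : charDegrees A ⊆ DT q) : False := by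
  have := h.normal
  obtain ⟨φ, hφ⟩ := exists_act S hn e
  have h2 : alternatingGroup (Fin n) ≤ φ.range := by
    intro g hg
    refine ⟨e.symm ⟨g, hg⟩, ?_⟩
    rw [hφ, MulEquiv.apply_symm_apply]
  have h3 : n - 1 ∈ charDegrees A := by
    refine Cfsg.Agent.H681.DegBasic.mem_charDegrees.2 ⟨_, chi1_irr φ (by omega) h2, ?_⟩
    rw [chi1_one, Nat.cast_sub (by omega), Nat.cast_one]
  have hle : n ≤ n.choose 2 := by
    rw [Nat.choose_two_right, Nat.le_div_iff_mul_le (by norm_num)]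
    exact Nat.mul_le_mul_left n (by omega)
  have h4 : n.choose 2 - n ∈ charDegrees A := by
    refine Cfsg.Agent.H681.DegBasic.mem_charDegrees.2 ⟨_, chi2_irr φ (by omega) h2, ?_⟩
    rw [chi2_one, Nat.cast_sub hle]
  have h6 := hD h3
  have h7 := hD h4
  have hc : 2 * n.choose 2 = n * (n - 1) := by
    rw [Nat.choose_two_right]
    exact Nat.mul_div_cancel' (Nat.even_mul_pred_self n).two_dvd
  obtain ⟨m, rfl⟩ : ∃ m, n = m + 1 := ⟨n - 1, by omega⟩
  rw [Nat.add_sub_cancel] at h6 hc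
  obtain ⟨d, hd⟩ : ∃ d, (m + 1).choose 2 - (m + 1) = d := ⟨_, rfl⟩
  have hd2 : 2 * d + 2 * (m + 1) = (m + 1) * m := by omega
  rw [hd] at h7
  clear h3 h4 hc hle hd h2 hφ e h hD
  simp only [DT, Set.mem_ofPred_eq] at h6 h7
  obtain ⟨r, rfl⟩ : ∃ r, q = r + 3 := ⟨q - 3, by omega⟩
  have e1 : r + 3 - 1 = r + 2 := by omega
  rw [e1] at h6 h7
  -- the largest degree
  have hmax : d ≤ (r + 3 + 1) * ((r + 3) ^ 2 + (r + 3) + 1) := by
    rcases h7 with h | h | h | h | h | ⟨-, h | h⟩ | ⟨-, h⟩ | ⟨-, h | h⟩ <;> nlinarith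
  -- the smallest degree
  rcases Nat.lt_or_ge m ((r + 3) ^ 2 + (r + 3)) with hm | hm
  · have hr : r = 1 := by
      rcases h6 with h | h | h | h | h | ⟨-, h | h⟩ | ⟨-, h⟩ | ⟨h3, h | h⟩
      · omega
      · omega
      · nlinarith
      · nlinarith
      · nlinarith
      · nlinarith
      · nlinarith
      · nlinarith
      · nlinarith
      · have : r < 2 := by
          by_contra hcon
          obtain ⟨s, rfl⟩ : ∃ s, r = s + 2 := ⟨r - 2, by omega⟩
          nlinarith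
        interval_cases r <;> omega
    subst hr
    have hm15 : m = 15 := by omega
    subst hm15
    omega
  · nlinarith
end Cfsg.Agent.H446.SLT
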