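import Cfsg.Agent.H464.PslDeg
import Cfsg.Agent.H597.L2Char
import Cfsg.Agent.S0495
import Cfsg.Agent.S0243
import Cfsg.Agent.S0249
import Cfsg.Agent.H681.DegBasic
import Cfsg.Agent.CharDeep.PowerDegrees

/-!
# The degrees of `SL₃(2)` (S4855, task 2529; helper446)
-/

set_option autoImplicit false

namespace Cfsg.Agent.H446.SLT

open Cfsg Cfsg.Agent.Characters.Core Cfsg.Agent.H681.DegBasic Matrix

/-- distinct degrees: the sum of the squares is at most the group order -/
theorem sum_sq_degrees_le {G : Type*} [Group G] [Finite G] (s : Finset ℕ) (hs : ∀ d ∈ s, d ∈ charDegrees G) :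
    ∑ d ∈ s, d ^ 2 ≤ Nat.card G := by
  classical
  have := finite_irr (G := G)
  have := Fintype.ofFinite (IrrCharacter G)
  have hex : ∀ d : ℕ, ∃ χ : IrrCharacter G, d ∈ s → (χ : G → ℂ) 1 = (d : ℂ) := by
    intro d
    by_cases hd : d ∈ s
    · obtain ⟨χ, hχ, h1⟩ := mem_charDegrees.1 (hs d hd)
      exact ⟨⟨χ, hχ⟩, fun _ => h1⟩
    · exact ⟨⟨1, isIrr_one⟩, fun h => absurd h hd⟩
  choose f hf using hex
  have hinj : Set.InjOn f s := by
    intro a ha b hb hab
    have h1 := hf a ha
    have h2 := hf b hb
    rw [hab, h2] at h1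
    exact_mod_cast h1.symm
  have hreal : ((∑ d ∈ s, d ^ 2 : ℕ) : ℝ) ≤ (Nat.card G : ℝ) := by
    have h1 : ∑ χ : IrrCharacter G, (((χ : G → ℂ) 1 ^ 2 : ℂ)).re = (Nat.card G : ℝ) := by
      rw [← Complex.re_sum, Cfsg.Agent.CharDeep.PowerDegrees.sum_sq]
      simp
    rw [← h1]
    calc ((∑ d ∈ s, d ^ 2 : ℕ) : ℝ) = ∑ d ∈ s, (((f d : G → ℂ) 1 ^ 2 : ℂ)).re := by
          push_cast
          refine Finset.sum_congr rfl fun d hd => ?_
          rw [hf d hd]
          norm_cast
      _ = ∑ χ ∈ s.image f, (((χ : G → ℂ) 1 ^ 2 : ℂ)).re := by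
          rw [Finset.sum_image hinj]
      _ ≤ ∑ χ : IrrCharacter G, (((χ : G → ℂ) 1 ^ 2 : ℂ)).re := by
          refine Finset.sum_le_sum_of_subset_of_nonneg (Finset.subset_univ _) fun χ _ _ => ?_
          obtain ⟨n, -, hn⟩ := isIrr_apply_one χ.2
          rw [hn]
          norm_cast
          positivity
  exact_mod_cast hreal

/-- **The degrees of `PSL₂(7)`.** -/
theorem psl_seven {K : Type*} [Field K] [Fintype K] (h7 : Fintype.card K = 7) :
    charDegrees (ProjectiveSpecialLinearGroup (Fin 2) K) = {1, 3, 6, 7, 8} := by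
  classical
  have h2 : ringChar K ≠ 2 := by
    intro h
    have h3 := FiniteField.even_card_iff_char_two.1 h
    omega
  obtain ⟨d7, d8, d6⟩ := Cfsg.Agent.H672.SL2Graph.psl_degrees h2 h7 (by norm_num)
  have d3 : 3 ∈ charDegrees (ProjectiveSpecialLinearGroup (Fin 2) K) := by
    obtain ⟨θ, hθ, hd⟩ := Cfsg.Agent.H597.L2Char.exists_half (F := K) (m := 3) (by omega) (by norm_num)
      (Or.inl rfl) (by decide)
    exact ⟨⟨θ, hθ⟩, hd⟩
  have hodd : Odd (Fintype.card K) := by rw [h7]; decide
  have hcard : Nat.card (ProjectiveSpecialLinearGroup (Fin 2) K) = 168 := by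
    have h := Cfsg.Agent.S0243.result h7 2 (by norm_num)
    rw [Fin.prod_univ_two] at h
    norm_num [-Nat.card_eq_fintype_card] at h
    omega
  ext d
  constructor
  · intro hd
    obtain ⟨χ, hχ, hχd⟩ := mem_charDegrees.1 (charDegrees_comp (QuotientGroup.mk' (Subgroup.center
      (SpecialLinearGroup (Fin 2) K))) (QuotientGroup.mk'_surjective _) hd)
    have h := (Cfsg.Agent.S2299.result (F := K) hodd).1 χ hχ
    rw [hχd, h7] at h
    have hd' : d = 1 ∨ d = 7 ∨ d = 8 ∨ d = 6 ∨ d = 4 ∨ d = 3 := by
      rcases h with h | h | h | h | h | h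
      · left; exact_mod_cast h
      · right; left; exact_mod_cast h
      · right; right; left
        have : ((d : ℕ) : ℂ) = ((8 : ℕ) : ℂ) := by rw [h]; norm_num
        exact_mod_cast this
      · right; right; right; left
        have : ((d : ℕ) : ℂ) = ((6 : ℕ) : ℂ) := by rw [h]; norm_num
        exact_mod_cast this
      · right; right; right; right; left
        norm_num at h
        exact_mod_cast h
      · right; right; right; right; right
        norm_num at h
        exact_mod_cast h
    rcases hd' with rfl | rfl | rfl | rfl | rfl | rfl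
    · simp
    · simp
    · simp
    · simp
    · exfalso
      have h3 := sum_sq_degrees_le (G := ProjectiveSpecialLinearGroup (Fin 2) K) {1, 3, 4, 6, 7, 8} (by
        intro x hx
        simp only [Finset.mem_insert, Finset.mem_singleton] at hx
        rcases hx with rfl | rfl | rfl | rfl | rfl | rfl
        · exact one_mem
        · exact d3
        · exact hd
        · exact d6
        · exact d7
        · exact d8)
      rw [hcard] at h3
      revert h3
      decide
    · simp
  · intro hd
    simp only [Set.mem_insert_iff, Set.mem_singleton_iff] at hd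
    rcases hd with rfl | rfl | rfl | rfl | rfl
    · exact one_mem
    · exact d3
    · exact d6
    · exact d7
    · exact d8

theorem sl3_small {F : Type} [Field F] [Fintype F] (h2 : Fintype.card F = 2) :
    charDegrees (SpecialLinearGroup (Fin 3) F) = {1, 3, 6, 7, 8} := by
  classical
  have hs : IsSimpleGroup (ProjectiveSpecialLinearGroup (Fin 3) F) := Cfsg.Agent.S0249.result 3 le_rfl
  have hcard : Nat.card (ProjectiveSpecialLinearGroup (Fin 3) F) = 168 := by
    have h := Cfsg.Agent.S0243.result h2 3 (by norm_num)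
    simp only [Fin.prod_univ_three] at h
    norm_num [-Nat.card_eq_fintype_card] at h
    omega
  have : Fact (Nat.Prime 7) := ⟨by norm_num⟩
  obtain ⟨e⟩ := Cfsg.Agent.S0495.result hcard (F := ZMod 7) (by rw [ZMod.card])
  -- the centre is trivial
  have hz : Subgroup.center (SpecialLinearGroup (Fin 3) F) = ⊥ := by
    rw [← Subgroup.card_eq_one, Nat.card_congr (SpecialLinearGroup.center_equiv_rootsOfUnity'
      (n := Fin 3) (R := F) 0).toEquiv, rootsOfUnity_eq_ker, IsCyclic.card_powMonoidHom_ker, Nat.card_units,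
      Nat.card_eq_fintype_card, h2]
    norm_num
  let e1 : SpecialLinearGroup (Fin 3) F ≃* ProjectiveSpecialLinearGroup (Fin 3) F :=
    (QuotientGroup.quotientBot.symm).trans (QuotientGroup.quotientMulEquivOfEq hz.symm)
  rw [← psl_seven (K := ZMod 7) (by rw [ZMod.card])]
  ext d
  constructor
  · intro hd
    exact charDegrees_comp (e1.trans e).symm.toMonoidHom (e1.trans e).symm.surjective hd
  · intro hd
    exact charDegrees_comp (e1.trans e).toMonoidHom (e1.trans e).surjective hd

end Cfsg.Agent.H446.SLT
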